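import Cfsg.Agent.H219.L34.Orb
import Cfsg.Agent.H745.L34.Adj

/-!
# S5917, Steinberg branch: an element of order 3 fixes 6 flags, 3 points, 3 lines of `PG(2, 4)` (helper179)
-/

set_option autoImplicit false

namespace Cfsg.Agent.H179.L34

open Matrix Cfsg.Agent.H691.L34 Cfsg.Agent.H482.LF

section gen
variable {G : Type} [Group G]

/-- counting the fixed cosets by representatives -/
theorem card_fix {ι : Type} [Fintype ι] {H : Subgroup G} {d : G} (f : ι → G)
    (h1 : ∀ i, (f i)⁻¹ * d * f i ∈ H) (h2 : ∀ i j, (f i)⁻¹ * f j ∈ H → i = j)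
    (h3 : ∀ x, x⁻¹ * d * x ∈ H → ∃ i, (f i)⁻¹ * x ∈ H) :
    Nat.card (MulAction.fixedBy (G ⧸ H) d) = Fintype.card ι := by
  rw [← Nat.card_eq_fintype_card]
  symm
  have key : ∀ x : G, d • (QuotientGroup.mk x : G ⧸ H) = QuotientGroup.mk x ↔ x⁻¹ * d * x ∈ H := by
    intro x
    rw [show d • (QuotientGroup.mk x : G ⧸ H) = QuotientGroup.mk (d * x) from rfl, eq_comm,
      QuotientGroup.eq, mul_assoc]
  refine Nat.card_congr (Equiv.ofBijective
    (fun i => (⟨QuotientGroup.mk (f i), (key _).2 (h1 i)⟩ : MulAction.fixedBy (G ⧸ H) d)) ⟨?_, ?_⟩)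
  · intro i j hij
    have := congrArg Subtype.val hij
    exact h2 i j (QuotientGroup.eq.1 this)
  · rintro ⟨q, hq⟩
    obtain ⟨x, rfl⟩ := QuotientGroup.mk_surjective q
    obtain ⟨i, hi⟩ := h3 x ((key x).1 hq)
    exact ⟨i, Subtype.ext (QuotientGroup.eq.2 hi)⟩

theorem card_fix_conj (H : Subgroup G) (k g : G) :
    Nat.card (MulAction.fixedBy (G ⧸ H) (k * g * k⁻¹)) = Nat.card (MulAction.fixedBy (G ⧸ H) g) := by
  symm
  refine Nat.card_congr ((MulAction.toPerm k).subtypeEquiv fun x => ?_)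
  show g • x = x ↔ (k * g * k⁻¹) • (k • x) = k • x
  rw [smul_smul, inv_mul_cancel_right, mul_smul]
  exact (smul_left_cancel_iff k).symm

end gen

variable {F : Type} [Field F]

/-- the permutation matrices (characteristic 2) -/
def pm (h2 : (2 : F) = 0) (σ : Equiv.Perm (Fin 3)) : G3 F :=
  ⟨(σ⁻¹).permMatrix F, by
    rw [Matrix.det_permutation]
    have h : (-1 : F) = 1 := by linear_combination (-1 : F) * h2
    rcases Int.units_eq_one_or (Equiv.Perm.sign σ⁻¹) with h1 | h1 <;> rw [h1] <;> simp [h]⟩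

theorem pm_apply (h2 : (2 : F) = 0) (σ : Equiv.Perm (Fin 3)) (a b : Fin 3) :
    (pm h2 σ).1 a b = if a = σ b then 1 else 0 := by
  show (σ⁻¹).permMatrix F a b = _
  rw [Equiv.Perm.permMatrix, PEquiv.toMatrix_apply]
  simp only [Equiv.toPEquiv_apply, Option.mem_def, Option.some.injEq, Equiv.Perm.inv_eq_iff_eq]

theorem pm_inv (h2 : (2 : F) = 0) (σ : Equiv.Perm (Fin 3)) : (pm h2 σ)⁻¹ = pm h2 σ⁻¹ := by
  apply inv_eq_of_mul_eq_one_right
  apply Subtype.ext
  ext a b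
  rw [mul3]
  simp only [pm_apply]
  rw [← Fin.sum_univ_three (fun c => (if a = σ c then (1 : F) else 0) * (if c = σ⁻¹ b then 1 else 0))]
  simp [Matrix.one_apply]

theorem pm_inv_mul (h2 : (2 : F) = 0) (σ : Equiv.Perm (Fin 3)) (x : G3 F) (a b : Fin 3) :
    ((pm h2 σ)⁻¹ * x).1 a b = x.1 (σ a) b := by
  rw [pm_inv, mul3]
  simp only [pm_apply]
  rw [← Fin.sum_univ_three (fun c => (if a = σ⁻¹ c then (1 : F) else 0) * x.1 c b)]
  simp [Equiv.eq_symm_apply]


section diag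
variable {D : Fin 3 → F} {d : G3 F}

theorem dent (h2 : (2 : F) = 0) (hd : ∀ a b, d.1 a b = if a = b then D a else 0) (σ : Equiv.Perm (Fin 3))
    (a b : Fin 3) : ((pm h2 σ)⁻¹ * d * pm h2 σ).1 a b = if a = b then D (σ a) else 0 := by
  rw [mul_assoc, pm_inv_mul, mul3]
  simp only [pm_apply, hd]
  rw [← Fin.sum_univ_three (fun c => (if σ a = c then D (σ a) else 0) * (if c = σ b then (1 : F) else 0))]
  simp

theorem col0 (x : G3 F) : ∃ i, x.1 i 0 ≠ 0 := by
  by_contra h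
  push Not at h
  have h1 : (x⁻¹ * x).1 0 0 = 1 := by rw [inv_mul_cancel]; rfl
  rw [mul3, h 0, h 1, h 2] at h1
  simp at h1

theorem row2 (x : G3 F) : ∃ i, (x⁻¹).1 2 i ≠ 0 := by
  by_contra h
  push Not at h
  have h1 : (x⁻¹ * x).1 2 2 = 1 := by rw [inv_mul_cancel]; rfl
  rw [mul3, h 0, h 1, h 2] at h1
  simp at h1

theorem dmul (hd : ∀ a b, d.1 a b = if a = b then D a else 0) (x : G3 F) (a b : Fin 3) :
    (d * x).1 a b = D a * x.1 a b := by
  rw [mul3]
  simp only [hd]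
  fin_cases a <;> simp

theorem muld (hd : ∀ a b, d.1 a b = if a = b then D a else 0) (x : G3 F) (a b : Fin 3) :
    (x * d).1 a b = x.1 a b * D b := by
  rw [mul3]
  simp only [hd]
  fin_cases b <;> simp

theorem pt_eq (hd : ∀ a b, d.1 a b = if a = b then D a else 0) (hD : Function.Injective D) {x : G3 F}
    (h1 : (x⁻¹ * d * x).1 1 0 = 0) (h2 : (x⁻¹ * d * x).1 2 0 = 0) :
    ∃ i, x.1 i 0 ≠ 0 ∧ ∀ a, a ≠ i → x.1 a 0 = 0 := by
  obtain ⟨i, hi⟩ := col0 x
  have e : ∀ a, D a * x.1 a 0 = x.1 a 0 * (x⁻¹ * d * x).1 0 0 := by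
    intro a
    have h3 : d * x = x * (x⁻¹ * d * x) := by group
    rw [← dmul hd, h3, mul3 x (x⁻¹ * d * x), h1, h2, mul_zero, mul_zero, add_zero, add_zero]
  refine ⟨i, hi, fun a ha => ?_⟩
  by_contra h0
  apply ha
  apply hD
  have e1 : D a = (x⁻¹ * d * x).1 0 0 := mul_right_cancel₀ h0 ((e a).trans (mul_comm _ _))
  have e2 : D i = (x⁻¹ * d * x).1 0 0 := mul_right_cancel₀ hi ((e i).trans (mul_comm _ _))
  rw [e1, e2]

theorem fix_PP (h2 : (2 : F) = 0) (hd : ∀ a b, d.1 a b = if a = b then D a else 0)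
    (hD : Function.Injective D) : Nat.card (MulAction.fixedBy (G3 F ⧸ PP F) d) = 3 := by
  have := card_fix (H := PP F) (d := d) (fun i : Fin 3 => pm h2 (Equiv.swap 0 i)) ?_ ?_ ?_
  · rw [this, Fintype.card_fin]
  · intro i
    constructor <;> rw [dent h2 hd] <;> simp
  · rintro i j ⟨e1, e2⟩
    rw [pm_inv_mul, pm_apply] at e1 e2
    have e1' : Equiv.swap 0 i 1 ≠ Equiv.swap 0 j 0 := fun h => by simp [h] at e1
    have e2' : Equiv.swap 0 i 2 ≠ Equiv.swap 0 j 0 := fun h => by simp [h] at e2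
    have key : ∀ i j : Fin 3, Equiv.swap 0 i 1 ≠ Equiv.swap 0 j 0 → Equiv.swap 0 i 2 ≠ Equiv.swap 0 j 0 →
        i = j := by decide
    exact key i j e1' e2'
  · rintro x ⟨e1, e2⟩
    obtain ⟨i, -, hi⟩ := pt_eq hd hD e1 e2
    have k1 : ∀ i : Fin 3, Equiv.swap 0 i 1 ≠ i ∧ Equiv.swap 0 i 2 ≠ i := by decide
    refine ⟨i, ?_, ?_⟩ <;> rw [pm_inv_mul]
    · exact hi _ (k1 i).1
    · exact hi _ (k1 i).2

theorem fix_LL (h2 : (2 : F) = 0) (hd : ∀ a b, d.1 a b = if a = b then D a else 0)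
    (hD : Function.Injective D) : Nat.card (MulAction.fixedBy (G3 F ⧸ LL F) d) = 3 := by
  have := card_fix (H := LL F) (d := d) (fun i : Fin 3 => pm h2 (Equiv.swap 2 i)) ?_ ?_ ?_
  · rw [this, Fintype.card_fin]
  · intro i
    constructor <;> rw [dent h2 hd] <;> simp
  · rintro i j ⟨e1, e2⟩
    rw [pm_inv_mul, pm_apply] at e1 e2
    have e1' : Equiv.swap 2 i 2 ≠ Equiv.swap 2 j 0 := fun h => by simp [h] at e1
    have e2' : Equiv.swap 2 i 2 ≠ Equiv.swap 2 j 1 := fun h => by simp [h] at e2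
    have key : ∀ i j : Fin 3, Equiv.swap 2 i 2 ≠ Equiv.swap 2 j 0 → Equiv.swap 2 i 2 ≠ Equiv.swap 2 j 1 →
        i = j := by decide
    exact key i j e1' e2'
  · rintro x ⟨e1, e2⟩
    obtain ⟨k, hk⟩ := row2 x
    have e : ∀ a, (x⁻¹).1 2 a * D a = (x⁻¹ * d * x).1 2 2 * (x⁻¹).1 2 a := by
      intro a
      have h3 : x⁻¹ * d = (x⁻¹ * d * x) * x⁻¹ := by group
      rw [← muld hd]
      refine (congrArg (fun y : G3 F => y.1 2 a) h3).trans ?_
      show ((x⁻¹ * d * x) * x⁻¹).1 2 a = _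
      rw [mul3 (x⁻¹ * d * x) x⁻¹, e1, e2, zero_mul, zero_mul, zero_add, zero_add]
    have hz : ∀ a, a ≠ k → (x⁻¹).1 2 a = 0 := by
      intro a ha
      by_contra h0
      apply ha
      apply hD
      have e3 : D a = (x⁻¹ * d * x).1 2 2 := mul_left_cancel₀ h0 ((e a).trans (mul_comm _ _))
      have e4 : D k = (x⁻¹ * d * x).1 2 2 := mul_left_cancel₀ hk ((e k).trans (mul_comm _ _))
      rw [e3, e4]
    have hx : ∀ b, b ≠ 2 → x.1 k b = 0 := by
      intro b hb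
      have h1 : (x⁻¹ * x).1 2 b = 0 := by
        rw [inv_mul_cancel]
        exact Matrix.one_apply_ne (Ne.symm hb)
      rw [mul3, ← Fin.sum_univ_three (fun c => (x⁻¹).1 2 c * x.1 c b),
        Finset.sum_eq_single k (fun a _ ha => by rw [hz a ha, zero_mul]) (fun h => absurd (Finset.mem_univ _) h)] at h1
      exact (mul_eq_zero.1 h1).resolve_left hk
    refine ⟨k, ?_, ?_⟩ <;> rw [pm_inv_mul, Equiv.swap_apply_left] <;> exact hx _ (by decide)

theorem fix_BB (h2 : (2 : F) = 0) (hd : ∀ a b, d.1 a b = if a = b then D a else 0)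
    (hD : Function.Injective D) : Nat.card (MulAction.fixedBy (G3 F ⧸ BB F) d) = 6 := by
  have := card_fix (H := BB F) (d := d) (fun σ : Equiv.Perm (Fin 3) => pm h2 σ) ?_ ?_ ?_
  · rw [this]
    rfl
  · intro i
    refine ⟨?_, ?_, ?_⟩ <;> rw [dent h2 hd] <;> simp
  · rintro i j ⟨e1, e2, e3⟩
    rw [pm_inv_mul, pm_apply] at e1 e2 e3
    have e1' : i 1 ≠ j 0 := fun h => by simp [h] at e1
    have e2' : i 2 ≠ j 0 := fun h => by simp [h] at e2
    have e3' : i 2 ≠ j 1 := fun h => by simp [h] at e3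
    have key : ∀ i j : Equiv.Perm (Fin 3), i 1 ≠ j 0 → i 2 ≠ j 0 → i 2 ≠ j 1 → i = j := by decide
    exact key i j e1' e2' e3'
  · rintro x ⟨e1, e2, e3⟩
    obtain ⟨i, hi0, hi⟩ := pt_eq hd hD e1 e2
    have e : ∀ a, a ≠ i → D a * x.1 a 1 = x.1 a 1 * (x⁻¹ * d * x).1 1 1 := by
      intro a ha
      have h3 : d * x = x * (x⁻¹ * d * x) := by group
      rw [← dmul hd, h3, mul3 x (x⁻¹ * d * x), e3, hi a ha, mul_zero, zero_mul, zero_add, add_zero]
    have hk : ∃ k, k ≠ i ∧ x.1 k 1 = 0 := by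
      have h3 : ∀ i : Fin 3, ∃ j k, j ≠ i ∧ k ≠ i ∧ j ≠ k := by decide
      obtain ⟨j, k, hj, hk, hjk⟩ := h3 i
      by_cases hj0 : x.1 j 1 = 0
      · exact ⟨j, hj, hj0⟩
      · refine ⟨k, hk, ?_⟩
        by_contra hk0
        apply hjk
        apply hD
        have e4 : D j = (x⁻¹ * d * x).1 1 1 := mul_right_cancel₀ hj0 ((e j hj).trans (mul_comm _ _))
        have e5 : D k = (x⁻¹ * d * x).1 1 1 := mul_right_cancel₀ hk0 ((e k hk).trans (mul_comm _ _))
        rw [e4, e5]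
    obtain ⟨k, hki, hk0⟩ := hk
    have h4 : ∀ i k : Fin 3, k ≠ i → ∃ σ : Equiv.Perm (Fin 3), σ 1 ≠ i ∧ σ 2 ≠ i ∧ σ 2 = k := by decide
    obtain ⟨σ, s1, s2, s3⟩ := h4 i k hki
    refine ⟨σ, ?_, ?_, ?_⟩ <;> rw [pm_inv_mul]
    · exact hi _ s1
    · exact hi _ s2
    · rw [s3]; exact hk0

end diag


section cls
open Cfsg.Agent.H745.L34

theorem exists_w [Fintype F] (hF : Fintype.card F = 4) : ∃ w : F, w ≠ 0 ∧ w ≠ 1 := by
  classical
  by_contra h
  push Not at h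
  have h1 : (Finset.univ : Finset F) ⊆ {0, 1} := by
    intro x _
    by_cases hx : x = 0
    · simp [hx]
    · simp [h x hx]
  have h2 := Finset.card_le_card h1
  rw [Finset.card_univ, hF] at h2
  have h3 : ({0, 1} : Finset F).card ≤ 2 := Finset.card_le_two
  omega

/-- a matrix of order 3 with a cyclic vector is conjugate to the cyclic permutation matrix -/
theorem cyc_conj {g : M3 F} (hg : g * g * g = 1) (v : Fin 3 → F) :
    g * Q g v = Q g v * !![0, 0, 1; 1, 0, 0; 0, 1, 0] := by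
  have h3 : g *ᵥ (g *ᵥ (g *ᵥ v)) = v := by
    rw [Matrix.mulVec_mulVec, Matrix.mulVec_mulVec, hg, Matrix.one_mulVec]
  ext i j
  fin_cases j
  · simp [Q, Matrix.mul_apply, Fin.sum_univ_three, Matrix.mulVec, dotProduct]
  · simp [Q, Matrix.mul_apply, Fin.sum_univ_three, Matrix.mulVec, dotProduct]
    ring
  · have := congrFun h3 i
    simp [Q, Matrix.mul_apply, Fin.sum_univ_three, Matrix.mulVec, dotProduct] at this ⊢
    linear_combination this

/-- a non-central element of order 3 is conjugate to `diag(1, w, w²)` -/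
theorem cls3 [Fintype F] (hF : Fintype.card F = 4) {w : F} (hw0 : w ≠ 0) (hw1 : w ≠ 1) (g : G3 F)
    (h3 : orderOf g = 3) (hc : g ∉ Subgroup.center (G3 F)) :
    ∃ k : G3 F, (k * g * k⁻¹).1 = !![1, 0, 0; 0, w, 0; 0, 0, w ^ 2] := by
  have w3 : w ^ 3 = 1 := pow3 hF hw0
  set d : M3 F := !![1, 0, 0; 0, w, 0; 0, 0, w ^ 2] with hdd
  have hg3 : g.1 * g.1 * g.1 = 1 := by
    have h1 : g ^ 3 = 1 := by
      have := pow_orderOf_eq_one g
      rwa [h3] at this
    have h2 : g * g * g = 1 := by rw [← h1, pow_succ, pow_two]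
    exact congrArg Subtype.val h2
  have hns : ∀ c : F, g.1 ≠ c • 1 := by
    intro c hcc
    apply hc
    rw [Subgroup.mem_center_iff]
    intro x
    apply Subtype.ext
    show x.1 * g.1 = g.1 * x.1
    rw [hcc]
    simp
  obtain ⟨v, hv⟩ := cyc_exists hF (g := g.1) g.2 (Or.inl rfl) (by rw [← hg3]; noncomm_ring) hns
  have hd3 : d * d * d = 1 := by
    rw [hdd]
    ext i j
    fin_cases i <;> fin_cases j <;> simp [Matrix.mul_apply, Fin.sum_univ_three]
    · linear_combination w3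
    · linear_combination (w ^ 3 + 1) * w3
  have hv' : (Q d ![1, 1, 1]).det ≠ 0 := by
    have e : (Q d ![1, 1, 1]).det = w * (w - 1) ^ 3 * (w + 1) := by
      rw [hdd]
      simp [Q, Matrix.det_fin_three, dotProduct, Fin.sum_univ_three]
      ring
    rw [e]
    have h2 : w + 1 ≠ 0 := fun h => hw1 (by linear_combination h - two0 hF)
    exact mul_ne_zero (mul_ne_zero hw0 (pow_ne_zero 3 (sub_ne_zero.2 hw1))) h2
  have c1 := cyc_conj hg3 v
  have c2 := cyc_conj hd3 ![1, 1, 1]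
  set P := Q g.1 v with hP
  set R := Q d ![1, 1, 1] with hR
  set c : M3 F := !![0, 0, 1; 1, 0, 0; 0, 1, 0] with hcd
  have hPu : IsUnit P.det := isUnit_iff_ne_zero.2 hv
  have hRu : IsUnit R.det := isUnit_iff_ne_zero.2 hv'
  set δ : F := P.det * (R.det)⁻¹ with hδ
  set e : M3 F := !![δ, 0, 0; 0, 1, 0; 0, 0, 1] with he
  have hed : e * d = d * e := by
    rw [he, hdd]
    ext i j
    fin_cases i <;> fin_cases j <;> simp [Matrix.mul_apply, Fin.sum_univ_three]
  have hdet : (e * (R * P⁻¹)).det = 1 := by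
    rw [Matrix.det_mul, Matrix.det_mul, Matrix.det_nonsing_inv, Ring.inverse_eq_inv', he,
      Matrix.det_fin_three]
    simp
    rw [hδ]
    field_simp
  set k : G3 F := ⟨e * (R * P⁻¹), hdet⟩ with hk
  have hPP : P * P⁻¹ = 1 := Matrix.mul_nonsing_inv _ hPu
  have hPP' : P⁻¹ * P = 1 := Matrix.nonsing_inv_mul _ hPu
  have key : k.1 * g.1 = d * k.1 := by
    show e * (R * P⁻¹) * g.1 = d * (e * (R * P⁻¹))
    have e1 : P⁻¹ * g.1 = c * P⁻¹ := by
      calc P⁻¹ * g.1 = P⁻¹ * g.1 * (P * P⁻¹) := by rw [hPP, Matrix.mul_one]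
        _ = P⁻¹ * (g.1 * P) * P⁻¹ := by simp only [Matrix.mul_assoc]
        _ = P⁻¹ * (P * c) * P⁻¹ := by rw [c1]
        _ = (P⁻¹ * P) * c * P⁻¹ := by simp only [Matrix.mul_assoc]
        _ = c * P⁻¹ := by rw [hPP', Matrix.one_mul]
    calc e * (R * P⁻¹) * g.1 = e * R * (P⁻¹ * g.1) := by simp only [Matrix.mul_assoc]
      _ = e * (R * c) * P⁻¹ := by rw [e1]; simp only [Matrix.mul_assoc]
      _ = (e * d) * (R * P⁻¹) := by rw [← c2]; simp only [Matrix.mul_assoc]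
      _ = d * (e * (R * P⁻¹)) := by rw [hed]; simp only [Matrix.mul_assoc]
  refine ⟨k, ?_⟩
  have h5 : k.1 * (k⁻¹).1 = 1 := congrArg Subtype.val (mul_inv_cancel k)
  calc (k * g * k⁻¹).1 = k.1 * g.1 * (k⁻¹).1 := rfl
    _ = d * (k.1 * (k⁻¹).1) := by rw [key, Matrix.mul_assoc]
    _ = d := by rw [h5, Matrix.mul_one]

end cls

/-- **box O3**: the dimensions of the fixed spaces of a non-central element of order 3 on the functions on the
flags, points, lines -/
theorem orb3 [Fintype F] (hF : Fintype.card F = 4)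
    (hcos : Nat.card (G3 F ⧸ BB F) = 105 ∧ Nat.card (G3 F ⧸ PP F) = 21 ∧ Nat.card (G3 F ⧸ LL F) = 21)
    (g : G3 F) (h : orderOf g = 3) (hc : g ∉ Subgroup.center (G3 F)) :
    Module.finrank (ZMod 2) (fixF (BB F) g) = 39 ∧ Module.finrank (ZMod 2) (fixF (PP F) g) = 9 ∧
      Module.finrank (ZMod 2) (fixF (LL F) g) = 9 := by
  obtain ⟨w, hw0, hw1⟩ := exists_w hF
  obtain ⟨k, hk⟩ := cls3 hF hw0 hw1 g h hc
  have w3 : w ^ 3 = 1 := Cfsg.Agent.H745.L34.pow3 hF hw0
  have hw2 : w ^ 2 ≠ 1 := fun h2 => hw1 (by linear_combination w3 - w * h2)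
  have hw2' : w ^ 2 ≠ w := fun h2 => hw1 (mul_left_cancel₀ hw0 (by linear_combination h2))
  have hD : Function.Injective (![1, w, w ^ 2] : Fin 3 → F) := by
    intro a b hab
    fin_cases a <;> fin_cases b <;> simp [hw1, hw2, hw2', Ne.symm hw1, Ne.symm hw2, Ne.symm hw2'] at hab ⊢
  have hd : ∀ a b, (k * g * k⁻¹).1 a b = if a = b then (![1, w, w ^ 2] : Fin 3 → F) a else 0 := by
    intro a b
    rw [hk]
    fin_cases a <;> fin_cases b <;> simp
  have t0 := Cfsg.Agent.H745.L34.two0 hF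
  have b := fix_BB t0 hd hD
  have p := fix_PP t0 hd hD
  have l := fix_LL t0 hd hD
  rw [card_fix_conj] at b p l
  have ob := Cfsg.Agent.H219.L34.orb (BB F) g Nat.prime_three h
  have op := Cfsg.Agent.H219.L34.orb (PP F) g Nat.prime_three h
  have ol := Cfsg.Agent.H219.L34.orb (LL F) g Nat.prime_three h
  rw [b, hcos.1] at ob
  rw [p, hcos.2.1] at op
  rw [l, hcos.2.2] at ol
  omega

end Cfsg.Agent.H179.L34
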